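import Cfsg.Agent.Lib.Helper39.SU.Fourier

/-!
# The set of characters of the centre of the unipotent radical occurring in a character
-/

set_option autoImplicit false
set_option linter.unusedSectionVars false

namespace Cfsg.Agent.Lib.Helper39.SUDeg

open Cfsg Cfsg.Agent.Lib Cfsg.Agent.Lib.Helper15
open scoped ComplexConjugate
open Matrix Cfsg.Agent.Lib.Helper13 Cfsg.Agent.Lib.Helper5

variable {F : Type*} [Field F] [Fintype F] [DecidableEq F] {q : ℕ} (hF : Fintype.card F = q ^ 2)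
variable {ι : Type*} [Fintype ι] [DecidableEq ι]

theorem siegel_core {G : Type*} [Group G] {χ : G → ℂ} (hχ : IsCharacter G χ)
    (a : Multiplicative (hermSub hF ι) →* G) {ψ : AddChar F ℂ} (hψ : ψ 1 ≠ 1)
    (P : Matrix ι ι F → Prop) (hP : ∀ A, P A → A.det ≠ 0)
    (hconj : ∀ A : Matrix ι ι F, P A → ∀ S : hermSub hF ι,
      χ (a (Multiplicative.ofAdd (cong hF A S))) = χ (a (Multiplicative.ofAdd S)))
    (hnt : ∃ S, χ (a (Multiplicative.ofAdd S)) ≠ χ 1) (d : ℕ)
    (hd : ∀ T : hermSub hF ι, T ≠ 0 → ∀ k : ℕ,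
      gMult (fun S => χ (a (Multiplicative.ofAdd S))) (trChar hF ψ T) = k → k ≠ 0 → d ≤ k)
    {n : ℕ} (hn : χ 1 = n) :
    ∃ 𝒯 : Finset (Matrix ι ι F), 𝒯.Nonempty ∧ (0 : Matrix ι ι F) ∉ 𝒯 ∧ (∀ T ∈ 𝒯, cT hF T = T) ∧
      (∀ A, P A → ∀ T ∈ 𝒯, cT hF A * T * A ∈ 𝒯) ∧ d * 𝒯.card ≤ n := by
  classical
  set f : hermSub hF ι → ℂ := fun S => χ (a (Multiplicative.ofAdd S)) with hf
  choose nT hnT using fun T => gMult_nat a hχ (trChar hF ψ T)
  have hinv := gMult_inversion f (trChar hF ψ) (fun z hz => sum_trChar hF hψ hz)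
  have hf0 : f 0 = χ 1 := by
    rw [hf]
    simp
  have hsum : n = ∑ T, nT T := by
    have h1 := hinv 0
    rw [hf0, hn] at h1
    simp only [AddChar.map_zero_eq_one, mul_one] at h1
    have h2 : (n : ℂ) = ((∑ T, nT T : ℕ) : ℂ) := by
      rw [← h1, Nat.cast_sum]
      exact Finset.sum_congr rfl (fun T _ => hnT T)
    exact_mod_cast h2
  set 𝒮 : Finset (hermSub hF ι) := Finset.univ.filter (fun T => T ≠ 0 ∧ nT T ≠ 0) with h𝒮
  have hminv : ∀ A : Matrix ι ι F, P A → ∀ T, nT (cong hF (cT hF A) T) = nT T := by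
    intro A hA T
    have h1 : gMult f (trChar hF ψ (cong hF (cT hF A) T)) = gMult f (trChar hF ψ T) := by
      unfold gMult
      congr 1
      rw [← (cong_bijective hF (hP A hA)).sum_comp (fun S => f S * conj (trChar hF ψ T S))]
      apply Finset.sum_congr rfl
      intro S _
      rw [trChar_cong, hf]
      simp only
      rw [hconj A hA]
    have h2 : (nT (cong hF (cT hF A) T) : ℂ) = nT T := by
      rw [← hnT, ← hnT]
      exact h1
    exact_mod_cast h2
  refine ⟨𝒮.image Subtype.val, ?_, ?_, ?_, ?_, ?_⟩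
  · by_contra hcon
    rw [Finset.image_nonempty, Finset.not_nonempty_iff_eq_empty] at hcon
    obtain ⟨S, hS⟩ := hnt
    apply hS
    have hz : ∀ T : hermSub hF ι, T ≠ 0 → gMult f (trChar hF ψ T) = 0 := by
      intro T hT
      have h1 : T ∉ 𝒮 := by rw [hcon]; simp
      rw [h𝒮, Finset.mem_filter] at h1
      push Not at h1
      have h3 := h1 (Finset.mem_univ _) hT
      have h4 := hnT T
      rw [h3] at h4
      simpa using h4
    have e1 := hinv S
    have e2 := hinv 0
    rw [Finset.sum_eq_single 0 (fun T _ hT => by rw [hz T hT, zero_mul])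
      (fun h => absurd (Finset.mem_univ _) h), trChar_zero] at e1 e2
    rw [← hf0, ← e2]
    exact e1.symm
  · intro h
    obtain ⟨T, hT, hT0⟩ := Finset.mem_image.1 h
    rw [h𝒮, Finset.mem_filter] at hT
    exact hT.2.1 (Subtype.ext hT0)
  · intro T hT
    obtain ⟨T', -, rfl⟩ := Finset.mem_image.1 hT
    exact T'.2
  · intro A hA T hT
    obtain ⟨T', hT', rfl⟩ := Finset.mem_image.1 hT
    rw [h𝒮, Finset.mem_filter] at hT'
    refine Finset.mem_image.2 ⟨cong hF (cT hF A) T', ?_, ?_⟩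
    · rw [h𝒮, Finset.mem_filter]
      refine ⟨Finset.mem_univ _, ?_, ?_⟩
      · intro h
        apply hT'.2.1
        apply cong_injective hF (A := cT hF A) (by rw [det_cT]; exact pow_ne_zero _ (hP A hA))
        rw [h, cong_zero]
      · rw [hminv A hA]
        exact hT'.2.2
    · rw [cong_val, cT_cT]
  · rw [Finset.card_image_of_injective _ Subtype.val_injective]
    rw [hsum, mul_comm, ← smul_eq_mul, ← Finset.sum_const]
    refine (Finset.sum_le_sum ?_).trans (Finset.sum_le_sum_of_subset (Finset.subset_univ 𝒮))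
    intro T hT
    rw [h𝒮, Finset.mem_filter] at hT
    exact hd T hT.2.1 (nT T) (hnT T) hT.2.2

include hF in
/-- the orbit bound under the full general linear group -/
theorem orbit_bound_gl (i₀ : ι) (𝒯 : Finset (Matrix ι ι F))
    (hne : 𝒯.Nonempty) (h0 : (0 : Matrix ι ι F) ∉ 𝒯) (hherm : ∀ T ∈ 𝒯, cT hF T = T)
    (h𝒯 : ∀ A : Matrix ι ι F, A.det ≠ 0 → ∀ T ∈ 𝒯, cT hF A * T * A ∈ 𝒯) :
    q ^ (2 * Fintype.card ι) - 1 ≤ (q + 1) * 𝒯.card := by
  by_cases h2 : 2 ≤ Fintype.card ι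
  · exact orbit_bound hF i₀ h2 𝒯 hne h0 hherm (fun A hA _ => h𝒯 A hA)
  have h1 : Fintype.card ι ≤ 1 := by omega
  have hsub : Subsingleton ι := Fintype.card_le_one_iff_subsingleton.1 h1
  obtain ⟨T, hT⟩ := hne
  have hT0 : T i₀ i₀ ≠ 0 := by
    intro h
    apply h0
    have : T = 0 := by
      ext i j
      rw [Subsingleton.elim i i₀, Subsingleton.elim j i₀, h]
      rfl
    rwa [this] at hT
  apply rank_one_bound hF 𝒯 hT0
  intro y hy
  have hy0 : y i₀ ≠ 0 := by
    intro h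
    apply hy
    ext i
    rw [Subsingleton.elim i i₀, h]
    rfl
  have h3 := h𝒯 (Matrix.diagonal fun _ => y i₀ ^ q) (by
    rw [Matrix.det_diagonal, Finset.prod_ne_zero_iff]
    intro i _
    exact pow_ne_zero _ hy0) T hT
  have h4 : cT hF (Matrix.diagonal fun _ => y i₀ ^ q) * T * (Matrix.diagonal fun _ => y i₀ ^ q)
      = T i₀ i₀ • vecMulVec y (cv q y) := by
    ext i j
    rw [Matrix.mul_diagonal, Matrix.mul_apply, Finset.sum_eq_single i₀
      (fun k _ hk => absurd (Subsingleton.elim k i₀) hk) (fun h => absurd (Finset.mem_univ _) h)]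
    rw [Subsingleton.elim i i₀, Subsingleton.elim j i₀, cT_apply, Matrix.diagonal_apply_eq,
      pow_q_pow_q hF]
    simp only [Matrix.smul_apply, Matrix.vecMulVec_apply, cv_apply, smul_eq_mul]
    ring
  rwa [h4] at h3

end Cfsg.Agent.Lib.Helper39.SUDeg
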