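import Cfsg.Agent.Lib.Helper39.SU.Embed
import Cfsg.Agent.Lib.Helper39.SU.Fourier
import Cfsg.Agent.Lib.Helper80.Inflation

/-!
# The Siegel parabolic subgroup of `SU_{2m}(q)` and the minimal degree
-/

set_option autoImplicit false
set_option linter.unusedSectionVars false

namespace Cfsg.Agent.Lib.Helper39.SUDeg

open Cfsg Cfsg.Agent.Lib Cfsg.Agent.Lib.Helper15
open Matrix Cfsg.Agent.Lib.Helper13 Cfsg.Agent.Lib.Helper5

variable {F : Type*} [Field F] [Fintype F] [DecidableEq F] {q : ℕ} (hF : Fintype.card F = q ^ 2)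

section kernel
variable {n : ℕ}

instance : Finite (Cfsg.SU n F q) := by
  have : Finite (Matrix.SpecialLinearGroup (Fin n) F) := Subtype.finite
  exact Subtype.finite

include hF in
theorem su_not_ker (hn : 3 ≤ n) (h32 : ¬ (n = 3 ∧ q = 2)) {χ : Cfsg.SU n F q → ℂ}
    (hχ : IsIrrCharacter (Cfsg.SU n F q) χ) (h1 : χ 1 ≠ 1) {g : Cfsg.SU n F q}
    (hg : g ∉ Subgroup.center (Cfsg.SU n F q)) : χ g ≠ χ 1 := by
  classical
  have := Fintype.ofFinite (Cfsg.SU n F q)
  intro h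
  have hn' := Helper80.charKer_normal (irr_char hχ)
  rcases su_normal_le_center_or hF hn h32 (Helper80.charKer χ (irr_char hχ)) with hb | ht
  · exact hg (hb h)
  · have hall : ∀ g, χ g = χ 1 := by
      intro g
      have : g ∈ Helper80.charKer χ (irr_char hχ) := by rw [ht]; trivial
      exact this
    have h2 := irr_inner_self hχ
    unfold classInner at h2
    simp_rw [hall] at h2
    obtain ⟨k, hk⟩ := char_one_nat (irr_char hχ)
    rw [hk] at h2
    rw [Finset.sum_const, Finset.card_univ, nsmul_eq_mul, Complex.conj_natCast,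
      Nat.card_eq_fintype_card] at h2
    have hc : (Fintype.card (Cfsg.SU n F q) : ℂ) ≠ 0 := by exact_mod_cast Fintype.card_ne_zero
    rw [← mul_assoc, inv_mul_cancel₀ hc, one_mul] at h2
    have h3 : k * k = 1 := by exact_mod_cast h2
    have h4 : k = 1 := Nat.eq_one_of_mul_eq_one_right h3
    apply h1
    rw [hk, h4]
    simp

end kernel

variable {ι : Type*} [Fintype ι] [DecidableEq ι]

/-- the hyperbolic form -/
def Jev : Matrix (ι ⊕ ι) (ι ⊕ ι) F := fromBlocks 0 1 1 0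

omit [Fintype F] [DecidableEq F] in
theorem Jev_sq : (Jev : Matrix (ι ⊕ ι) (ι ⊕ ι) F) * Jev = 1 := by
  unfold Jev
  rw [Matrix.fromBlocks_multiply]
  simp

theorem Jev_herm : cT hF (Jev : Matrix (ι ⊕ ι) (ι ⊕ ι) F) = Jev := by
  unfold Jev
  rw [cT_fromBlocks, cT_zero, cT_one]

/-- a hyperbolic basis for the standard form -/
def Cev (q : ℕ) (e b : F) : Matrix (ι ⊕ ι) (ι ⊕ ι) F :=
  fromBlocks 1 (b • 1) (e • 1) ((-(e * b ^ q)) • 1)

theorem Cev_spec {e b : F} (he : e ^ (q + 1) = -1) (hb : b + b ^ q = 1) :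
    cT hF (Cev q e b : Matrix (ι ⊕ ι) (ι ⊕ ι) F) * Cev q e b = Jev := by
  unfold Cev Jev
  rw [cT_fromBlocks, cT_smul, cT_smul, cT_smul, cT_one, Matrix.fromBlocks_multiply]
  have he' : e ^ q * e = -1 := by rw [← pow_succ, he]
  congr 1
  · rw [Matrix.one_mul, Matrix.smul_mul, Matrix.mul_smul, Matrix.one_mul, smul_smul, he', neg_smul,
      one_smul, add_neg_cancel]
  · rw [Matrix.one_mul, Matrix.smul_mul, Matrix.mul_smul, Matrix.one_mul, smul_smul, ← add_smul]
    have : b + e ^ q * -(e * b ^ q) = 1 := by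
      rw [← hb]
      linear_combination (-b ^ q) * he'
    rw [this, one_smul]
  · rw [Matrix.mul_one, Matrix.smul_mul, Matrix.mul_smul, Matrix.one_mul, smul_smul, ← add_smul]
    have : b ^ q + (-(e * b ^ q)) ^ q * e = 1 := by
      rw [neg_pow_q hF, mul_pow, pow_q_pow_q hF, ← hb]
      linear_combination (-b) * he'
    rw [this, one_smul]
  · rw [Matrix.smul_mul, Matrix.mul_smul, Matrix.one_mul, smul_smul, Matrix.smul_mul, Matrix.mul_smul,
      Matrix.one_mul, smul_smul, ← add_smul]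
    have : b ^ q * b + (-(e * b ^ q)) ^ q * -(e * b ^ q) = 0 := by
      rw [neg_pow_q hF, mul_pow, pow_q_pow_q hF]
      linear_combination (b * b ^ q) * he'
    rw [this, zero_smul]

/-- the model of `SU_{2m}(q)` on a hyperbolic basis -/
def evModel (m : ℕ) {e b : F} (he : e ^ (q + 1) = -1) (hb : b + b ^ q = 1) :
    HModel hF (Jev : Matrix (Fin m ⊕ Fin m) (Fin m ⊕ Fin m) F) (m + m) where
  e := finSumFinEquiv
  C := Cev q e b
  hJ := Jev_sq
  hJh := Jev_herm hF
  hC := Cev_spec hF he hb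

/-- elements of the unipotent radical -/
def aJ {ε : F} (hε : ε + ε ^ q = 0) (S : hermSub hF ι) : UJ hF (Jev : Matrix (ι ⊕ ι) (ι ⊕ ι) F) :=
  ⟨⟨fromBlocks 1 (ε • S.1) 0 1, by rw [Matrix.det_fromBlocks_zero₂₁]; simp⟩, by
    change cT hF (fromBlocks 1 (ε • S.1) 0 1) * Jev * fromBlocks 1 (ε • S.1) 0 1 = Jev
    unfold Jev
    rw [cT_fromBlocks, cT_one, cT_zero, cT_smul, (mem_hermSub hF).1 S.2, Matrix.fromBlocks_multiply,
      Matrix.fromBlocks_multiply]
    simp only [Matrix.one_mul, Matrix.mul_one, Matrix.mul_zero, Matrix.zero_mul, add_zero, zero_add]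
    congr 1
    rw [← add_smul, hε, zero_smul]⟩

theorem aJ_val {ε : F} (hε : ε + ε ^ q = 0) (S : hermSub hF ι) :
    (aJ hF hε S).1.1 = fromBlocks 1 (ε • S.1) 0 1 := rfl

/-- the unipotent radical as a homomorphism -/
def aHom {ε : F} (hε : ε + ε ^ q = 0) :
    Multiplicative (hermSub hF ι) →* UJ hF (Jev : Matrix (ι ⊕ ι) (ι ⊕ ι) F) :=
  MonoidHom.mk' (fun S => aJ hF hε (Multiplicative.toAdd S)) (by
    intro S S'
    apply Subtype.ext
    apply Subtype.ext
    change fromBlocks 1 (ε • (Multiplicative.toAdd S + Multiplicative.toAdd S').1) 0 1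
      = fromBlocks 1 (ε • (Multiplicative.toAdd S).1) 0 1
        * fromBlocks 1 (ε • (Multiplicative.toAdd S').1) 0 1
    rw [Matrix.fromBlocks_multiply]
    simp only [Matrix.one_mul, Matrix.mul_one, Matrix.mul_zero, Matrix.zero_mul, add_zero, zero_add]
    rw [AddSubgroup.coe_add, smul_add, add_comm])

theorem aHom_apply {ε : F} (hε : ε + ε ^ q = 0) (S : hermSub hF ι) :
    aHom hF hε (Multiplicative.ofAdd S) = aJ hF hε S := rfl

/-- elements of the Levi subgroup -/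
noncomputable def lJ {A : Matrix ι ι F} (hA1 : A.det ≠ 0) (hA2 : A.det ^ q = A.det) :
    UJ hF (Jev : Matrix (ι ⊕ ι) (ι ⊕ ι) F) :=
  ⟨⟨fromBlocks A 0 0 (cT hF A)⁻¹, by
    rw [Matrix.det_fromBlocks_zero₂₁, Matrix.det_nonsing_inv, det_cT, hA2, Ring.inverse_eq_inv',
      mul_inv_cancel₀ hA1]⟩, by
    change cT hF (fromBlocks A 0 0 (cT hF A)⁻¹) * Jev * fromBlocks A 0 0 (cT hF A)⁻¹ = Jev
    unfold Jev
    have hu : IsUnit (cT hF A).det := by
      rw [det_cT]
      exact isUnit_iff_ne_zero.2 (pow_ne_zero _ hA1)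
    have hu' : IsUnit A.det := isUnit_iff_ne_zero.2 hA1
    rw [cT_fromBlocks, cT_zero, cT_inv, cT_cT, Matrix.fromBlocks_multiply,
      Matrix.fromBlocks_multiply]
    simp only [Matrix.mul_one, Matrix.mul_zero, Matrix.zero_mul, add_zero, zero_add]
    rw [Matrix.mul_nonsing_inv _ hu, Matrix.nonsing_inv_mul _ hu']⟩

theorem lJ_conj {ε : F} (hε : ε + ε ^ q = 0) {A : Matrix ι ι F} (hA1 : A.det ≠ 0)
    (hA2 : A.det ^ q = A.det) (S : hermSub hF ι) :
    lJ hF hA1 hA2 * aJ hF hε S * (lJ hF hA1 hA2)⁻¹ = aJ hF hε (cong hF A S) := by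
  rw [mul_inv_eq_iff_eq_mul]
  apply Subtype.ext
  apply Subtype.ext
  change fromBlocks A 0 0 (cT hF A)⁻¹ * fromBlocks 1 (ε • S.1) 0 1
    = fromBlocks 1 (ε • (cong hF A S).1) 0 1 * fromBlocks A 0 0 (cT hF A)⁻¹
  have hu : IsUnit (cT hF A).det := by
    rw [det_cT]
    exact isUnit_iff_ne_zero.2 (pow_ne_zero _ hA1)
  rw [Matrix.fromBlocks_multiply, Matrix.fromBlocks_multiply, cong_val]
  simp only [Matrix.one_mul, Matrix.mul_one, Matrix.mul_zero, Matrix.zero_mul, add_zero, zero_add]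
  congr 1
  rw [Matrix.smul_mul, Matrix.mul_nonsing_inv_cancel_right _ _ hu, Matrix.mul_smul]

theorem aJ_not_scalar {ε : F} (hε : ε + ε ^ q = 0) (hε0 : ε ≠ 0) {S : hermSub hF ι} (hS : S ≠ 0)
    (c : F) : (aJ hF hε S).1.1 ≠ Matrix.scalar (ι ⊕ ι) c := by
  intro h
  apply hS
  apply Subtype.ext
  ext i j
  have := congrFun (congrFun h (Sum.inl i)) (Sum.inr j)
  rw [aJ_val] at this
  simp only [Matrix.fromBlocks_apply₁₂, Matrix.smul_apply, smul_eq_mul, Matrix.scalar_apply,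
    Matrix.diagonal_apply, reduceCtorEq, if_false] at this
  rcases mul_eq_zero.1 this with h0 | h0
  · exact absurd h0 hε0
  · exact h0

include hF in
/-- the bound for `SU_{2m}(q)` -/
theorem su_even_bound (m : ℕ) (hm : 2 ≤ m) {χ : Cfsg.SU (m + m) F q → ℂ}
    (hχ : IsIrrCharacter (Cfsg.SU (m + m) F q) χ) (h1 : χ 1 ≠ 1) {n : ℕ} (hn : χ 1 = n) :
    q ^ (2 * m) - 1 ≤ (q + 1) * n := by
  obtain ⟨e, -, he⟩ := exists_norm_eq hF (-1) (neg_ne_zero.2 one_ne_zero) (by
    rw [neg_pow_q hF, one_pow])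
  obtain ⟨b, hb⟩ := exists_tr hF 1 (one_pow q)
  obtain ⟨ε, hε0, hε⟩ := exists_skew_q hF
  obtain ⟨ψ, hψ⟩ := exists_addChar_one_ne (F := F)
  set 𝔐 := evModel hF m he hb with h𝔐
  have key := siegel_bound hF (ι := Fin m) (irr_char hχ) (𝔐.emb.comp (aHom hF hε)) hψ (by
      intro A hA1 hA2 S
      rw [MonoidHom.comp_apply, MonoidHom.comp_apply, aHom_apply, aHom_apply, ← lJ_conj hF hε hA1 hA2,
        map_mul, map_mul, map_inv]
      exact irr_cf hχ _ _) (by
      obtain ⟨S, hS⟩ : ∃ S : hermSub hF (Fin m), S ≠ 0 := by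
        refine ⟨⟨1, cT_one hF⟩, ?_⟩
        intro h
        have h2 := congrArg Subtype.val h
        have h3 := congrFun (congrFun h2 ⟨0, by omega⟩) ⟨0, by omega⟩
        simp at h3
      refine ⟨S, ?_⟩
      apply su_not_ker hF (by omega) (by omega) hχ h1
      intro hc
      rw [MonoidHom.comp_apply, aHom_apply] at hc
      obtain ⟨c, hc⟩ := 𝔐.scalar_of_emb_mem_center hc
      exact aJ_not_scalar hF hε hε0 hS c hc) 1 (by
      intro T _ k _ hk
      omega) hn ⟨0, by omega⟩ (by simpa using hm)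
  simpa using key

end Cfsg.Agent.Lib.Helper39.SUDeg
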