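import Cfsg.Agent.Lib.Helper39.SU.Fourier
import Cfsg.Agent.Lib.Helper15.Extraspecial

/-!
# Multiplicities of central characters in groups of Heisenberg type
-/

set_option autoImplicit false
set_option linter.unusedSectionVars false

namespace Cfsg.Agent.Lib.Helper39.SUDeg

open Cfsg Cfsg.Agent.Lib Cfsg.Agent.Lib.Helper15
open scoped ComplexConjugate

variable {R : Type*} [Group R] [Fintype R] {B : Type*} [AddCommGroup B] [Fintype B] [DecidableEq B]
  (a : Multiplicative B →* R)

/-- the central character of an irreducible character -/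
noncomputable def cenCh (hcen : ∀ b, a b ∈ Subgroup.center R) {θ : R → ℂ}
    (hθ : IsIrrCharacter R θ) : AddChar B ℂ where
  toFun b := θ (a (Multiplicative.ofAdd b)) / θ 1
  map_zero_eq_one' := by
    rw [ofAdd_zero, map_one, div_self (irr_one_ne_zero hθ)]
  map_add_eq_mul' := by
    intro b c
    have h := irr_mul_central hθ (a (Multiplicative.ofAdd b)) (hcen (Multiplicative.ofAdd c))
    rw [← map_mul, ← ofAdd_add] at h
    have h1 := irr_one_ne_zero hθ
    field_simp
    rw [h]

theorem eq_cenCh_mul (hcen : ∀ b, a b ∈ Subgroup.center R) {θ : R → ℂ}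
    (hθ : IsIrrCharacter R θ) (b : B) :
    θ (a (Multiplicative.ofAdd b)) = θ 1 * cenCh a hcen hθ b := by
  change _ = θ 1 * (θ (a (Multiplicative.ofAdd b)) / θ 1)
  have h1 := irr_one_ne_zero hθ
  field_simp

omit [DecidableEq B] in
theorem addChar_mul_conj (μ : AddChar B ℂ) (b : B) : μ b * conj (μ b) = 1 := by
  rw [← AddChar.map_neg_eq_conj, ← AddChar.map_add_eq_mul, add_neg_cancel, AddChar.map_zero_eq_one]

omit [DecidableEq B] in
theorem sum_addChar_mul_conj {μ ν : AddChar B ℂ} (h : μ ≠ ν) : ∑ b, μ b * conj (ν b) = 0 := by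
  have h1 : μ * ν⁻¹ ≠ 1 := by
    intro h2
    exact h (mul_inv_eq_one.1 h2)
  have h2 := AddChar.sum_eq_zero_of_ne_one h1
  rw [← h2]
  apply Finset.sum_congr rfl
  intro b _
  rw [AddChar.mul_apply, AddChar.inv_apply, AddChar.map_neg_eq_conj]

theorem gMult_irr (hcen : ∀ b, a b ∈ Subgroup.center R) {θ : R → ℂ}
    (hθ : IsIrrCharacter R θ) (ν : AddChar B ℂ) :
    gMult (fun b => θ (a (Multiplicative.ofAdd b))) ν = if cenCh a hcen hθ = ν then θ 1 else 0 := by
  unfold gMult
  simp_rw [eq_cenCh_mul a hcen hθ, mul_assoc]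
  rw [← Finset.mul_sum]
  have hq : (Fintype.card B : ℂ) ≠ 0 := by exact_mod_cast Fintype.card_ne_zero
  split_ifs with h
  · rw [h]
    simp_rw [addChar_mul_conj]
    rw [Finset.sum_const, Finset.card_univ, nsmul_eq_mul, mul_one]
    field_simp
  · rw [sum_addChar_mul_conj h, mul_zero, mul_zero]

/-- the degree of an irreducible character which is fully ramified over the central subgroup -/
theorem heis_degree (ha : Function.Injective a) (hcen : ∀ b, a b ∈ Subgroup.center R) {θ : R → ℂ}
    (hθ : IsIrrCharacter R θ)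
    (hcomm : ∀ g : R, g ∉ Set.range a → ∃ (h : R) (b : B),
      g⁻¹ * h⁻¹ * g * h = a (Multiplicative.ofAdd b) ∧ cenCh a hcen hθ b ≠ 1) {t : ℕ}
    (ht : θ 1 = t) : Fintype.card R = Fintype.card B * t ^ 2 := by
  classical
  have h := irr_inner_self hθ
  unfold classInner at h
  rw [Nat.card_eq_fintype_card] at h
  have hq : (Fintype.card R : ℂ) ≠ 0 := by exact_mod_cast Fintype.card_ne_zero
  have h2 : ∑ g : R, θ g * conj (θ g) = (Fintype.card R : ℂ) := by
    field_simp at h
    exact h
  have hv : ∀ g : R, g ∉ Set.range a → θ g = 0 := by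
    intro g hg
    obtain ⟨k, b, hk, hb⟩ := hcomm g hg
    apply irr_eq_zero_of_comm hθ g k
    · rw [hk]; exact hcen _
    · rw [hk, eq_cenCh_mul a hcen hθ]
      intro h3
      apply hb
      exact mul_left_cancel₀ (irr_one_ne_zero hθ) (h3.trans (mul_one _).symm)
  have h3 : ∑ g : R, θ g * conj (θ g) = ∑ b : Multiplicative B, θ (a b) * conj (θ (a b)) := by
    rw [← Finset.sum_image (f := fun g => θ g * conj (θ g)) (g := a) (s := Finset.univ)
      (fun x _ y _ hxy => ha hxy)]
    symm
    apply Finset.sum_subset (Finset.subset_univ _)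
    intro g _ hg
    rw [hv g, zero_mul]
    rintro ⟨b, rfl⟩
    exact hg (Finset.mem_image_of_mem _ (Finset.mem_univ _))
  rw [h3] at h2
  simp_rw [irr_central_norm hθ (hcen _), ht] at h2
  rw [Finset.sum_const, Finset.card_univ, Fintype.card_multiplicative, nsmul_eq_mul] at h2
  have : ((Fintype.card B * t ^ 2 : ℕ) : ℂ) = (Fintype.card R : ℂ) := by
    rw [← h2]
    push_cast
    ring
  exact_mod_cast this.symm

omit [DecidableEq B] in
theorem gMult_sum {κ : Type*} (s : Finset κ) (c : κ → ℂ) (f : κ → B → ℂ) (ν : AddChar B ℂ) :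
    gMult (fun b => ∑ i ∈ s, c i * f i b) ν = ∑ i ∈ s, c i * gMult (f i) ν := by
  unfold gMult
  simp_rw [Finset.sum_mul, Finset.mul_sum]
  rw [Finset.sum_comm]
  apply Finset.sum_congr rfl
  intro i _
  apply Finset.sum_congr rfl
  intro b _
  ring

/-- the multiplicity of a central character which is fully ramified is large -/
theorem heis_mult (ha : Function.Injective a) (hcen : ∀ b, a b ∈ Subgroup.center R) {φ : R → ℂ}
    (hφ : IsCharacter R φ) (ν : AddChar B ℂ) (N : ℕ)
    (hcomm : ∀ g : R, g ∉ Set.range a → ∃ (h : R) (b : B),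
      g⁻¹ * h⁻¹ * g * h = a (Multiplicative.ofAdd b) ∧ ν b ≠ 1)
    (hcard : N ^ 2 * Fintype.card B ≤ Fintype.card R) {k : ℕ}
    (hk : gMult (fun b => φ (a (Multiplicative.ofAdd b))) ν = k) (hk0 : k ≠ 0) : N ≤ k := by
  classical
  have := Fintype.ofFinite (IrrCharacter R)
  obtain ⟨θ, hθ, hθ1, hθ2⟩ : ∃ (θ : R → ℂ) (hθ : IsIrrCharacter R θ), classInner φ θ ≠ 0 ∧
      cenCh a hcen hθ = ν := by
    by_contra hcon
    push Not at hcon
    apply hk0
    have hexp := cf_expansion (char_cf hφ)
    have h1 : (fun b => φ (a (Multiplicative.ofAdd b)))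
        = fun b => ∑ η : IrrCharacter R, classInner φ η.1 * η.1 (a (Multiplicative.ofAdd b)) := by
      ext b
      conv_lhs => rw [hexp]
      simp only [Finset.sum_apply, Pi.smul_apply, smul_eq_mul]
    rw [h1, gMult_sum] at hk
    have h2 : ∑ η : IrrCharacter R, classInner φ η.1
        * gMult (fun b => η.1 (a (Multiplicative.ofAdd b))) ν = 0 := by
      apply Finset.sum_eq_zero
      intro η _
      by_cases h0 : classInner φ η.1 = 0
      · rw [h0, zero_mul]
      · rw [gMult_irr a hcen η.2, if_neg (hcon η.1 η.2 h0), mul_zero]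
    rw [h2] at hk
    exact_mod_cast hk.symm
  obtain ⟨t, ht⟩ := char_one_nat (irr_char hθ)
  have hdeg := heis_degree a ha hcen hθ (by rw [hθ2]; exact hcomm) ht
  have hNt : N ≤ t := by
    rw [hdeg, mul_comm] at hcard
    have h1 : N ^ 2 ≤ t ^ 2 := Nat.le_of_mul_le_mul_left hcard Fintype.card_pos
    exact (Nat.pow_le_pow_iff_left (by norm_num)).1 h1
  have hdiff : IsCharacter R (φ - θ) := by
    rw [isChar_iff]
    refine ⟨Helper3.IsClassFunction.sub (char_cf hφ) (irr_cf hθ), ?_⟩
    intro η hη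
    rw [Helper15.classInner_sub_left]
    obtain ⟨c, hc⟩ := inner_nat hφ (irr_char hη)
    by_cases hηθ : θ = η
    · subst hηθ
      rw [irr_inner_self hθ, hc]
      have hc0 : c ≠ 0 := by
        rintro rfl
        apply hθ1
        rw [hc]
        simp
      refine ⟨c - 1, ?_⟩
      rw [Nat.cast_sub (by omega)]
      simp
    · rw [irr_inner_ne hθ hη hηθ, sub_zero]
      exact ⟨c, hc⟩
  obtain ⟨e, he⟩ := gMult_nat a hdiff ν
  have h3 : gMult (fun b => φ (a (Multiplicative.ofAdd b))) ν = t + e := by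
    rw [← he, ← ht]
    have h4 := gMult_irr a hcen hθ ν
    rw [if_pos hθ2] at h4
    rw [← h4, ← gMult_add]
    congr 1
    ext b
    simp
  rw [hk] at h3
  have : k = t + e := by exact_mod_cast h3
  omega

end Cfsg.Agent.Lib.Helper39.SUDeg
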