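import Cfsg.Agent.Lib.Helper39.SU.OddMat
import Cfsg.Agent.Lib.Helper39.SU.Heis
import Cfsg.Agent.Lib.Helper39.SU.Core

/-!
# The minimal degree for `SU_{2m+1}(q)`
-/

set_option autoImplicit false
set_option linter.unusedSectionVars false

namespace Cfsg.Agent.Lib.Helper39.SUDeg

open Cfsg Cfsg.Agent.Lib Cfsg.Agent.Lib.Helper15
open Matrix Cfsg.Agent.Lib.Helper13 Cfsg.Agent.Lib.Helper5

variable {F : Type*} [Field F] [Fintype F] [DecidableEq F] {q : ℕ} (hF : Fintype.card F = q ^ 2)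
variable {ι : Type*} [Fintype ι] [DecidableEq ι]

local notation "JJ" => (Jod : Matrix ((ι ⊕ ι) ⊕ Unit) ((ι ⊕ ι) ⊕ Unit) F)

/-- elements of the unipotent radical -/
def uQ (Y : Matrix ι Unit F) (X : Matrix ι ι F) (h : X + cT hF X + Y * cT hF Y = 0) : UJ hF JJ :=
  ⟨⟨nQ hF Y X, nQ_det hF Y X⟩, (nQ_unitary_iff hF Y X).2 h⟩

theorem uQ_val (Y : Matrix ι Unit F) (X : Matrix ι ι F) (h : X + cT hF X + Y * cT hF Y = 0) :
    (uQ hF Y X h).1.1 = nQ hF Y X := rfl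

theorem UJ_ext {N N' : UJ hF JJ} (h : N.1.1 = N'.1.1) : N = N' := Subtype.ext (Subtype.ext h)

theorem UJ_mul_val (N N' : UJ hF JJ) : (N * N').1.1 = N.1.1 * N'.1.1 := rfl

theorem cond_of_val {N : UJ hF JJ} {Y : Matrix ι Unit F} {X : Matrix ι ι F}
    (h : N.1.1 = nQ hF Y X) : X + cT hF X + Y * cT hF Y = 0 := by
  rw [← nQ_unitary_iff, ← h]
  exact N.2

theorem skew_cond {ε : F} (hε : ε + ε ^ q = 0) (S : hermSub hF ι) :
    ε • S.1 + cT hF (ε • S.1) + (0 : Matrix ι Unit F) * cT hF (0 : Matrix ι Unit F) = 0 := by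
  rw [cT_smul, (mem_hermSub hF).1 S.2, ← add_smul, hε, zero_smul, Matrix.zero_mul, add_zero]

/-- the centre of the unipotent radical -/
def aOd {ε : F} (hε : ε + ε ^ q = 0) : Multiplicative (hermSub hF ι) →* UJ hF JJ :=
  MonoidHom.mk' (fun S => uQ hF 0 (ε • (Multiplicative.toAdd S).1) (skew_cond hF hε _)) (by
    intro S S'
    apply UJ_ext
    rw [UJ_mul_val, uQ_val, uQ_val, uQ_val, nQ_mul, Matrix.zero_mul, sub_zero, add_zero, toAdd_mul,
      AddSubgroup.coe_add, smul_add])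

theorem aOd_val {ε : F} (hε : ε + ε ^ q = 0) (S : hermSub hF ι) :
    (aOd hF hε (Multiplicative.ofAdd S)).1.1 = nQ hF 0 (ε • S.1) := rfl

theorem smul_mul_cT_smul (c c' : F) (Y : Matrix ι Unit F) :
    (c • Y) * cT hF (c' • Y) = (c * c' ^ q) • (Y * cT hF Y) := by
  rw [cT_smul, Matrix.smul_mul, Matrix.mul_smul, smul_smul]

/-- a subgroup of Heisenberg type -/
def Rsub (Y₀ : Matrix ι Unit F) : Subgroup (UJ hF JJ) where
  carrier := {N | ∃ (c : F) (X : Matrix ι ι F), N.1.1 = nQ hF (c • Y₀) X}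
  one_mem' := ⟨0, 0, by rw [zero_smul, nQ_zero_zero]; rfl⟩
  mul_mem' := by
    rintro a b ⟨c, X, h⟩ ⟨c', X', h'⟩
    exact ⟨c + c', X + X' - (c • Y₀) * cT hF (c' • Y₀), by
      rw [UJ_mul_val, h, h', nQ_mul, add_smul]⟩
  inv_mem' := by
    rintro a ⟨c, X, h⟩
    refine ⟨-c, -X - (c • Y₀) * cT hF (c • Y₀), ?_⟩
    have h1 : a.1.1 * (a⁻¹).1.1 = 1 := by
      rw [← UJ_mul_val, mul_inv_cancel]
      rfl
    have h2 : nQ hF ((-c) • Y₀) (-X - (c • Y₀) * cT hF (c • Y₀)) * a.1.1 = 1 := by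
      rw [h, nQ_mul, ← nQ_zero_zero hF]
      congr 1
      · rw [neg_smul, neg_add_cancel]
      · rw [neg_smul, Matrix.neg_mul]
        abel
    exact (left_inv_eq_right_inv h2 h1).symm

theorem mem_Rsub {Y₀ : Matrix ι Unit F} {N : UJ hF JJ} :
    N ∈ Rsub hF Y₀ ↔ ∃ (c : F) (X : Matrix ι ι F), N.1.1 = nQ hF (c • Y₀) X := Iff.rfl

/-- the centre inside the Heisenberg subgroup -/
def aR {ε : F} (hε : ε + ε ^ q = 0) (Y₀ : Matrix ι Unit F) :
    Multiplicative (hermSub hF ι) →* Rsub hF Y₀ :=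
  (aOd hF hε).codRestrict (Rsub hF Y₀) (fun S => ⟨0, ε • (Multiplicative.toAdd S).1, by
    rw [zero_smul]
    rfl⟩)

theorem aR_val {ε : F} (hε : ε + ε ^ q = 0) (Y₀ : Matrix ι Unit F) (S : hermSub hF ι) :
    (aR hF hε Y₀ (Multiplicative.ofAdd S)).1.1.1 = nQ hF 0 (ε • S.1) := rfl

theorem aR_injective {ε : F} (hε : ε + ε ^ q = 0) (hε0 : ε ≠ 0) (Y₀ : Matrix ι Unit F) :
    Function.Injective (aR hF hε Y₀) := by
  intro S S' h
  have h1 : nQ hF 0 (ε • (Multiplicative.toAdd S).1) = nQ hF 0 (ε • (Multiplicative.toAdd S').1) :=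
    congrArg (fun N : Rsub hF Y₀ => N.1.1.1) h
  have h2 := (nQ_inj hF h1).2
  have h3 : (Multiplicative.toAdd S).1 = (Multiplicative.toAdd S').1 := smul_right_injective _ hε0 h2
  exact Multiplicative.toAdd.injective (Subtype.ext h3)

theorem aR_central {ε : F} (hε : ε + ε ^ q = 0) (Y₀ : Matrix ι Unit F)
    (S : Multiplicative (hermSub hF ι)) : aR hF hε Y₀ S ∈ Subgroup.center (Rsub hF Y₀) := by
  rw [Subgroup.mem_center_iff]
  rintro ⟨g, c, X, hg⟩
  apply Subtype.ext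
  apply UJ_ext
  change g.1.1 * nQ hF 0 (ε • (Multiplicative.toAdd S).1)
    = nQ hF 0 (ε • (Multiplicative.toAdd S).1) * g.1.1
  rw [hg, nQ_mul, nQ_mul, cT_zero, Matrix.mul_zero, Matrix.zero_mul, add_zero, zero_add, sub_zero,
    sub_zero, add_comm]

theorem P_herm (Y₀ : Matrix ι Unit F) : cT hF (Y₀ * cT hF Y₀) = Y₀ * cT hF Y₀ := by
  rw [cT_mul, cT_cT]

theorem std_cond {ε b : F} (hε : ε + ε ^ q = 0) (hb : b + b ^ q = 1) (Y₀ : Matrix ι Unit F) (c : F)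
    (S : hermSub hF ι) :
    ((-(b * c ^ (q + 1))) • (Y₀ * cT hF Y₀) + ε • S.1)
      + cT hF ((-(b * c ^ (q + 1))) • (Y₀ * cT hF Y₀) + ε • S.1)
      + (c • Y₀) * cT hF (c • Y₀) = 0 := by
  rw [cT_add, cT_smul, cT_smul, P_herm, (mem_hermSub hF).1 S.2, smul_mul_cT_smul]
  have h1 : (-(b * c ^ (q + 1))) ^ q = -(b ^ q * c ^ (q + 1)) := by
    rw [neg_pow_q hF, mul_pow, norm_pow_q hF]
  rw [h1]
  have h2 : ε ^ q = -ε := by linear_combination hε
  rw [h2]
  have h3 : c * c ^ q = (b + b ^ q) * c ^ (q + 1) := by rw [hb, one_mul, pow_succ, mul_comm]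
  rw [h3]
  module

/-- standard elements of the Heisenberg subgroup -/
def sR {ε b : F} (hε : ε + ε ^ q = 0) (hb : b + b ^ q = 1) (Y₀ : Matrix ι Unit F) (c : F)
    (S : hermSub hF ι) : Rsub hF Y₀ :=
  ⟨uQ hF (c • Y₀) ((-(b * c ^ (q + 1))) • (Y₀ * cT hF Y₀) + ε • S.1) (std_cond hF hε hb Y₀ c S),
    ⟨c, _, rfl⟩⟩

theorem sR_injective {ε b : F} (hε : ε + ε ^ q = 0) (hε0 : ε ≠ 0) (hb : b + b ^ q = 1)
    {Y₀ : Matrix ι Unit F} (hY : Y₀ ≠ 0) :
    Function.Injective (fun p : F × hermSub hF ι => sR hF hε hb Y₀ p.1 p.2) := by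
  rintro ⟨c, S⟩ ⟨c', S'⟩ h
  have h1 : nQ hF (c • Y₀) ((-(b * c ^ (q + 1))) • (Y₀ * cT hF Y₀) + ε • S.1)
      = nQ hF (c' • Y₀) ((-(b * c' ^ (q + 1))) • (Y₀ * cT hF Y₀) + ε • S'.1) :=
    congrArg (fun N : Rsub hF Y₀ => N.1.1.1) h
  obtain ⟨h2, h3⟩ := nQ_inj hF h1
  have h4 : c = c' := smul_left_injective F hY h2
  subst h4
  have h5 : S.1 = S'.1 := smul_right_injective _ hε0 (add_left_cancel h3)
  rw [Subtype.ext h5]

instance : Finite (UJ hF JJ) := by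
  have : Finite (Matrix.SpecialLinearGroup ((ι ⊕ ι) ⊕ Unit) F) := Subtype.finite
  exact Subtype.finite

theorem col_mul_cT (v : ι → F) :
    (Matrix.replicateCol Unit v) * cT hF (Matrix.replicateCol Unit v) = vecMulVec v (cv q v) := by
  ext i j
  simp [Matrix.mul_apply, cT_apply, Matrix.vecMulVec_apply, cv_apply]

theorem trace_mul_rank_one (T : Matrix ι ι F) (v : ι → F) :
    (T * vecMulVec v (cv q v)).trace = hf q T v v := by
  rw [Matrix.mul_vecMulVec, Matrix.trace_vecMulVec, dotProduct_comm]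
  rfl

/-- every character of the centre occurs with multiplicity at least `q` -/
theorem odd_mult {H : Type*} [Group H] (j : UJ hF JJ →* H) {χ : H → ℂ} (hχ : IsCharacter H χ)
    {ε : F} (hε : ε + ε ^ q = 0) (hε0 : ε ≠ 0) {ψ : AddChar F ℂ} (hψ : ψ 1 ≠ 1)
    (T : hermSub hF ι) (hT : T ≠ 0) (k : ℕ)
    (hk : gMult (fun S => χ (j (aOd hF hε (Multiplicative.ofAdd S)))) (trChar hF ψ T) = k)
    (hk0 : k ≠ 0) : q ≤ k := by
  classical
  obtain ⟨b, hb⟩ := exists_tr hF 1 (one_pow q)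
  obtain ⟨v, hv⟩ := herm_exists_ne hF ((mem_hermSub hF).1 T.2) (fun h => hT (Subtype.ext h))
  set a₀ := hf q T.1 v v with ha₀
  have ha₀q : a₀ ^ q = a₀ := hf_self_pow hF ((mem_hermSub hF).1 T.2) v
  set Y₀ : Matrix ι Unit F := Matrix.replicateCol Unit v with hY₀
  have hY₀ne : Y₀ ≠ 0 := by
    intro h
    apply hv
    have hv0 : v = 0 := by
      ext i
      have := congrFun (congrFun h i) ()
      simpa [hY₀] using this
    rw [ha₀, hv0]
    unfold hf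
    rw [Matrix.mulVec_zero, dotProduct_zero]
  set P := Y₀ * cT hF Y₀ with hP
  have hPtr : (T.1 * P).trace = a₀ := by
    rw [hP, hY₀, col_mul_cT, trace_mul_rank_one]
  have := Fintype.ofFinite (Rsub hF Y₀)
  have hεq : ε ^ q = -ε := by linear_combination hε
  refine heis_mult (aR hF hε Y₀) (aR_injective hF hε hε0 Y₀) (aR_central hF hε Y₀)
    (φ := fun g => χ (j g.1)) (Helper3.IsCharacter.comp_hom hχ (j.comp (Rsub hF Y₀).subtype))
    (trChar hF ψ T) q ?_ ?_ hk hk0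
  · rintro ⟨g, c, X, hg⟩ hnot
    have hc : c ≠ 0 := by
      rintro rfl
      apply hnot
      rw [zero_smul] at hg
      have hX := cond_of_val hF hg
      rw [Matrix.zero_mul, add_zero] at hX
      have hX' : cT hF X = -X := by
        rw [eq_neg_iff_add_eq_zero, add_comm]
        exact hX
      refine ⟨Multiplicative.ofAdd ⟨ε⁻¹ • X, ?_⟩, ?_⟩
      · rw [mem_hermSub, cT_smul, hX', inv_pow, hεq, inv_neg, neg_smul, smul_neg, neg_neg]
      · apply Subtype.ext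
        apply UJ_ext
        rw [aR_val, hg]
        simp only
        rw [smul_smul, mul_inv_cancel₀ hε0, one_smul]
    have hcq : c ^ q ≠ 0 := pow_ne_zero _ hc
    set w := b * ε / a₀ with hw
    set c' := w / c ^ q with hc'
    have e1 : c' * c ^ q = w := by rw [hc']; field_simp
    have e2 : c * c' ^ q = w ^ q := by
      rw [hc', div_pow, pow_q_pow_q hF]
      field_simp
    have e3 : w - w ^ q = ε * a₀⁻¹ := by
      rw [hw, div_pow, mul_pow, ha₀q, hεq]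
      field_simp
      linear_combination hb
    refine ⟨sR hF hε hb Y₀ c' 0, ⟨a₀⁻¹ • P, ?_⟩, ?_, ?_⟩
    · rw [mem_hermSub, cT_smul, inv_pow, ha₀q, hP, P_herm]
    · have key : (⟨g, c, X, hg⟩ : Rsub hF Y₀) * sR hF hε hb Y₀ c' 0
          = sR hF hε hb Y₀ c' 0 * ⟨g, c, X, hg⟩
            * aR hF hε Y₀ (Multiplicative.ofAdd ⟨a₀⁻¹ • P, by
              rw [mem_hermSub, cT_smul, inv_pow, ha₀q, hP, P_herm]⟩) := by
        apply Subtype.ext
        apply UJ_ext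
        change g.1.1 * nQ hF (c' • Y₀) _ = nQ hF (c' • Y₀) _ * g.1.1 * nQ hF 0 (ε • (a₀⁻¹ • P))
        rw [hg, nQ_mul, nQ_mul, nQ_mul, smul_mul_cT_smul, smul_mul_cT_smul, e1, e2, cT_zero,
          Matrix.mul_zero, sub_zero, add_zero, smul_smul, ← e3, ← hP]
        congr 1
        · rw [add_comm]
        · module
      set g' : Rsub hF Y₀ := ⟨g, c, X, hg⟩
      calc g'⁻¹ * (sR hF hε hb Y₀ c' 0)⁻¹ * g' * sR hF hε hb Y₀ c' 0
          = g'⁻¹ * (sR hF hε hb Y₀ c' 0)⁻¹ * (g' * sR hF hε hb Y₀ c' 0) := by group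
        _ = _ := by
          rw [key]
          group
    · rw [trChar_apply]
      simp only
      rw [Matrix.mul_smul, Matrix.trace_smul, hPtr, smul_eq_mul, inv_mul_cancel₀ hv]
      exact hψ
  · have h1 := Fintype.card_le_of_injective _ (sR_injective hF hε hε0 hb hY₀ne)
    rwa [Fintype.card_prod, hF] at h1

end Cfsg.Agent.Lib.Helper39.SUDeg
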