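import Cfsg.Agent.Lib.Helper39.SU.Odd

/-!
# The minimal degree for `SU_{2m+1}(q)`: conclusion
-/

set_option autoImplicit false
set_option linter.unusedSectionVars false

namespace Cfsg.Agent.Lib.Helper39.SUDeg

open Cfsg Cfsg.Agent.Lib Cfsg.Agent.Lib.Helper15
open Matrix Cfsg.Agent.Lib.Helper13 Cfsg.Agent.Lib.Helper5

variable {F : Type*} [Field F] [Fintype F] [DecidableEq F] {q : ℕ} (hF : Fintype.card F = q ^ 2)
variable {ι : Type*} [Fintype ι] [DecidableEq ι]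

local notation "JJ" => (Jod : Matrix ((ι ⊕ ι) ⊕ Unit) ((ι ⊕ ι) ⊕ Unit) F)

theorem levi_form {A : Matrix ι ι F} (hA : A.det ≠ 0) :
    cT hF (fromBlocks A 0 0 (cT hF A)⁻¹) * Jev * fromBlocks A 0 0 (cT hF A)⁻¹ = Jev := by
  unfold Jev
  have hu : IsUnit (cT hF A).det := by
    rw [det_cT]
    exact isUnit_iff_ne_zero.2 (pow_ne_zero _ hA)
  have hu' : IsUnit A.det := isUnit_iff_ne_zero.2 hA
  rw [cT_fromBlocks, cT_zero, cT_inv, cT_cT, Matrix.fromBlocks_multiply,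
    Matrix.fromBlocks_multiply]
  simp only [Matrix.mul_one, Matrix.mul_zero, Matrix.zero_mul, add_zero, zero_add]
  rw [Matrix.mul_nonsing_inv _ hu, Matrix.nonsing_inv_mul _ hu']

/-- elements of the Levi subgroup -/
noncomputable def lOd {A : Matrix ι ι F} (hA : A.det ≠ 0) : UJ hF JJ :=
  ⟨⟨fromBlocks (fromBlocks A 0 0 (cT hF A)⁻¹) 0 0 ((A.det ^ q / A.det) • 1), by
    rw [Matrix.det_fromBlocks_zero₂₁, Matrix.det_fromBlocks_zero₂₁, Matrix.det_nonsing_inv, det_cT,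
      Ring.inverse_eq_inv', Matrix.det_smul, Matrix.det_one, Fintype.card_unit, pow_one, mul_one]
    have := pow_ne_zero q hA
    field_simp⟩, by
    change cT hF (fromBlocks (fromBlocks A 0 0 (cT hF A)⁻¹) 0 0 ((A.det ^ q / A.det) • 1)) * Jod
      * fromBlocks (fromBlocks A 0 0 (cT hF A)⁻¹) 0 0 ((A.det ^ q / A.det) • 1) = Jod
    unfold Jod
    rw [cT_fromBlocks, cT_zero, cT_zero, Matrix.fromBlocks_multiply, Matrix.fromBlocks_multiply]
    simp only [Matrix.mul_one, Matrix.mul_zero, Matrix.zero_mul, add_zero, zero_add]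
    rw [levi_form hF hA, cT_smul, cT_one, Matrix.smul_mul, Matrix.one_mul, smul_smul]
    have h1 : (A.det ^ q / A.det) ^ q * (A.det ^ q / A.det) = 1 := by
      rw [div_pow, pow_q_pow_q hF]
      have := pow_ne_zero q hA
      field_simp
    rw [h1, one_smul]⟩

theorem lOd_conj {ε : F} (hε : ε + ε ^ q = 0) {A : Matrix ι ι F} (hA : A.det ≠ 0)
    (S : hermSub hF ι) :
    lOd hF hA * aOd hF hε (Multiplicative.ofAdd S) * (lOd hF hA)⁻¹
      = aOd hF hε (Multiplicative.ofAdd (cong hF A S)) := by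
  rw [mul_inv_eq_iff_eq_mul]
  apply UJ_ext
  change fromBlocks (fromBlocks A 0 0 (cT hF A)⁻¹) 0 0 ((A.det ^ q / A.det) • 1) * nQ hF 0 (ε • S.1)
    = nQ hF 0 (ε • (cong hF A S).1)
      * fromBlocks (fromBlocks A 0 0 (cT hF A)⁻¹) 0 0 ((A.det ^ q / A.det) • 1)
  have hu : IsUnit (cT hF A).det := by
    rw [det_cT]
    exact isUnit_iff_ne_zero.2 (pow_ne_zero _ hA)
  rw [nQ_zero, nQ_zero, Matrix.fromBlocks_multiply, Matrix.fromBlocks_multiply,
    Matrix.fromBlocks_multiply, Matrix.fromBlocks_multiply, cong_val]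
  simp only [Matrix.one_mul, Matrix.mul_one, Matrix.mul_zero, Matrix.zero_mul, add_zero, zero_add]
  congr 2
  rw [Matrix.smul_mul, Matrix.mul_nonsing_inv_cancel_right _ _ hu, Matrix.mul_smul]

/-- the model of `SU_{2m+1}(q)` -/
noncomputable def odModel (m : ℕ) {e b : F} (he : e ^ (q + 1) = -1) (hb : b + b ^ q = 1) :
    HModel hF (Jod : Matrix ((Fin m ⊕ Fin m) ⊕ Unit) ((Fin m ⊕ Fin m) ⊕ Unit) F) (2 * m + 1) where
  e := Fintype.equivFinOfCardEq (by simp; ring)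
  C := Cod q e b
  hJ := Jod_sq
  hJh := Jod_herm hF
  hC := Cod_spec hF he hb

theorem aOd_not_scalar {ε : F} (hε : ε + ε ^ q = 0) (hε0 : ε ≠ 0) {S : hermSub hF ι} (hS : S ≠ 0)
    (c : F) : (aOd hF hε (Multiplicative.ofAdd S)).1.1 ≠ Matrix.scalar ((ι ⊕ ι) ⊕ Unit) c := by
  intro h
  apply hS
  apply Subtype.ext
  ext i j
  have := congrFun (congrFun h (Sum.inl (Sum.inl i))) (Sum.inl (Sum.inr j))
  rw [aOd_val, nQ_zero] at this
  simp only [Matrix.fromBlocks_apply₁₁, Matrix.fromBlocks_apply₁₂, Matrix.smul_apply, smul_eq_mul,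
    Matrix.scalar_apply, Matrix.diagonal_apply, Sum.inl.injEq, reduceCtorEq, if_false] at this
  rcases mul_eq_zero.1 this with h0 | h0
  · exact absurd h0 hε0
  · exact h0

include hF in
/-- the bound for `SU_{2m+1}(q)` -/
theorem su_odd_bound (m : ℕ) (hm : 1 ≤ m) (h32 : ¬ (2 * m + 1 = 3 ∧ q = 2))
    {χ : Cfsg.SU (2 * m + 1) F q → ℂ}
    (hχ : IsIrrCharacter (Cfsg.SU (2 * m + 1) F q) χ) (h1 : χ 1 ≠ 1) {n : ℕ} (hn : χ 1 = n) :
    q * (q ^ (2 * m) - 1) ≤ (q + 1) * n := by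
  obtain ⟨e, -, he⟩ := exists_norm_eq hF (-1) (neg_ne_zero.2 one_ne_zero) (by
    rw [neg_pow_q hF, one_pow])
  obtain ⟨b, hb⟩ := exists_tr hF 1 (one_pow q)
  obtain ⟨ε, hε0, hε⟩ := exists_skew_q hF
  obtain ⟨ψ, hψ⟩ := exists_addChar_one_ne (F := F)
  set 𝔐 := odModel hF m he hb with h𝔐
  obtain ⟨𝒯, t1, t2, t3, t4, t5⟩ := siegel_core hF (ι := Fin m) (irr_char hχ)
    (𝔐.emb.comp (aOd hF hε)) hψ (fun A => A.det ≠ 0) (fun A hA => hA) (by
      intro A hA S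
      rw [MonoidHom.comp_apply, MonoidHom.comp_apply, ← lOd_conj hF hε hA,
        map_mul, map_mul, map_inv]
      exact irr_cf hχ _ _) (by
      obtain ⟨S, hS⟩ : ∃ S : hermSub hF (Fin m), S ≠ 0 := by
        refine ⟨⟨1, cT_one hF⟩, ?_⟩
        intro h
        have h2 := congrArg Subtype.val h
        have h3 := congrFun (congrFun h2 ⟨0, by omega⟩) ⟨0, by omega⟩
        simp at h3
      refine ⟨S, ?_⟩
      apply su_not_ker hF (by omega) h32 hχ h1
      intro hc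
      rw [MonoidHom.comp_apply] at hc
      obtain ⟨c, hc⟩ := 𝔐.scalar_of_emb_mem_center hc
      exact aOd_not_scalar hF hε hε0 hS c hc) q (by
      intro T hT k hk hk0
      exact odd_mult hF 𝔐.emb (irr_char hχ) hε hε0 hψ T hT k hk hk0) hn
  have hb := orbit_bound_gl hF (⟨0, by omega⟩ : Fin m) 𝒯 t1 t2 t3 t4
  rw [Fintype.card_fin] at hb
  calc q * (q ^ (2 * m) - 1) ≤ q * ((q + 1) * 𝒯.card) := Nat.mul_le_mul_left _ hb
    _ = (q + 1) * (q * 𝒯.card) := by ring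
    _ ≤ _ := Nat.mul_le_mul_left _ t5

end Cfsg.Agent.Lib.Helper39.SUDeg
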