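import Cfsg.Agent.Lib.Helper39.SU.Even

/-!
# Matrices for the maximal parabolic subgroup of `SU_{2m+1}(q)`
-/

set_option autoImplicit false
set_option linter.unusedSectionVars false

namespace Cfsg.Agent.Lib.Helper39.SUDeg

open Matrix Cfsg.Agent.Lib.Helper13 Cfsg.Agent.Lib.Helper5

variable {F : Type*} [Field F] [Fintype F] [DecidableEq F] {q : ℕ} (hF : Fintype.card F = q ^ 2)
variable {ι : Type*} [Fintype ι] [DecidableEq ι]

/-- the form -/
def Jod : Matrix ((ι ⊕ ι) ⊕ Unit) ((ι ⊕ ι) ⊕ Unit) F := fromBlocks Jev 0 0 1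

omit [Fintype F] [DecidableEq F] in
theorem Jod_sq : (Jod : Matrix ((ι ⊕ ι) ⊕ Unit) ((ι ⊕ ι) ⊕ Unit) F) * Jod = 1 := by
  unfold Jod
  rw [Matrix.fromBlocks_multiply, Jev_sq]
  simp

theorem Jod_herm : cT hF (Jod : Matrix ((ι ⊕ ι) ⊕ Unit) ((ι ⊕ ι) ⊕ Unit) F) = Jod := by
  unfold Jod
  rw [cT_fromBlocks, cT_zero, cT_zero, cT_one, Jev_herm]

/-- a basis adapted to the form -/
def Cod (q : ℕ) (e b : F) : Matrix ((ι ⊕ ι) ⊕ Unit) ((ι ⊕ ι) ⊕ Unit) F :=
  fromBlocks (Cev q e b) 0 0 1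

theorem Cod_spec {e b : F} (he : e ^ (q + 1) = -1) (hb : b + b ^ q = 1) :
    cT hF (Cod q e b : Matrix ((ι ⊕ ι) ⊕ Unit) ((ι ⊕ ι) ⊕ Unit) F) * Cod q e b = Jod := by
  unfold Cod Jod
  rw [cT_fromBlocks, cT_zero, cT_zero, cT_one, Matrix.fromBlocks_multiply, Cev_spec hF he hb]
  simp

theorem cT_fromRows {α β γ : Type*} (A : Matrix α γ F) (B : Matrix β γ F) :
    cT hF (fromRows A B) = fromCols (cT hF A) (cT hF B) := by
  unfold cT
  rw [Matrix.fromRows_map, Matrix.transpose_fromRows]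

theorem cT_fromCols {α β γ : Type*} (A : Matrix γ α F) (B : Matrix γ β F) :
    cT hF (fromCols A B) = fromRows (cT hF A) (cT hF B) := by
  unfold cT
  rw [Matrix.fromCols_map, Matrix.transpose_fromCols]

omit [Fintype F] [DecidableEq F] in
theorem fromRows_add {α β γ : Type*} (A A' : Matrix α γ F) (B B' : Matrix β γ F) :
    fromRows A B + fromRows A' B' = fromRows (A + A') (B + B') := by
  ext (i | i) j <;> rfl

omit [Fintype F] [DecidableEq F] in
theorem fromCols_add {α β γ : Type*} (A A' : Matrix γ α F) (B B' : Matrix γ β F) :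
    fromCols A B + fromCols A' B' = fromCols (A + A') (B + B') := by
  ext i (j | j) <;> rfl

/-- elements of the unipotent radical -/
def nQ (Y : Matrix ι Unit F) (X : Matrix ι ι F) : Matrix ((ι ⊕ ι) ⊕ Unit) ((ι ⊕ ι) ⊕ Unit) F :=
  fromBlocks (fromBlocks 1 X 0 1) (fromRows Y 0) (fromCols 0 (-cT hF Y)) 1

theorem nQ_mul (Y Y' : Matrix ι Unit F) (X X' : Matrix ι ι F) :
    nQ hF Y X * nQ hF Y' X' = nQ hF (Y + Y') (X + X' - Y * cT hF Y') := by
  unfold nQ
  rw [Matrix.fromBlocks_multiply, Matrix.fromBlocks_multiply, Matrix.fromRows_mul_fromCols,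
    Matrix.fromBlocks_mul_fromRows, Matrix.fromCols_mul_fromBlocks, Matrix.fromCols_mul_fromRows,
    Matrix.fromBlocks_add]
  simp only [Matrix.one_mul, Matrix.mul_one, Matrix.mul_zero, Matrix.zero_mul, add_zero, zero_add,
    fromRows_add, fromCols_add, Matrix.mul_neg, cT_add, neg_add]
  congr 2
  · abel
  · abel
  · abel

theorem nQ_det (Y : Matrix ι Unit F) (X : Matrix ι ι F) : (nQ hF Y X).det = 1 := by
  unfold nQ
  rw [Matrix.det_fromBlocks_one₂₂, Matrix.fromRows_mul_fromCols, sub_eq_add_neg,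
    Matrix.fromBlocks_neg, Matrix.fromBlocks_add]
  simp only [Matrix.mul_zero, Matrix.zero_mul, neg_zero, add_zero]
  rw [Matrix.det_fromBlocks_zero₂₁]
  simp

theorem nQ_form (Y : Matrix ι Unit F) (X : Matrix ι ι F) :
    cT hF (nQ hF Y X) * Jod * nQ hF Y X
      = fromBlocks (fromBlocks 0 1 1 (X + cT hF X + Y * cT hF Y)) 0 0 1 := by
  unfold nQ Jod Jev
  rw [cT_fromBlocks, cT_fromBlocks, cT_fromRows, cT_fromCols, cT_neg, cT_cT, cT_one, cT_one, cT_zero,
    cT_zero, cT_zero]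
  rw [Matrix.fromBlocks_multiply, Matrix.fromBlocks_multiply, Matrix.fromCols_mul_fromBlocks]
  simp only [Matrix.one_mul, Matrix.mul_one, Matrix.mul_zero, Matrix.zero_mul, add_zero, zero_add]
  rw [Matrix.fromBlocks_multiply, Matrix.fromBlocks_multiply, Matrix.fromRows_mul_fromCols,
    Matrix.fromBlocks_mul_fromRows, Matrix.fromCols_mul_fromBlocks, Matrix.fromCols_mul_fromRows,
    Matrix.fromBlocks_add]
  simp only [Matrix.one_mul, Matrix.mul_one, Matrix.mul_zero, Matrix.zero_mul, add_zero, zero_add,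
    fromRows_add, fromCols_add, Matrix.mul_neg, Matrix.neg_mul, neg_neg, add_neg_cancel,
    Matrix.fromRows_zero, Matrix.fromCols_zero, neg_zero]

theorem nQ_unitary_iff (Y : Matrix ι Unit F) (X : Matrix ι ι F) :
    cT hF (nQ hF Y X) * Jod * nQ hF Y X = Jod ↔ X + cT hF X + Y * cT hF Y = 0 := by
  rw [nQ_form]
  unfold Jod Jev
  constructor
  · intro h
    have h1 := (Matrix.fromBlocks_inj.1 h).1
    exact (Matrix.fromBlocks_inj.1 h1).2.2.2
  · intro h
    rw [h]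

theorem nQ_inj {Y Y' : Matrix ι Unit F} {X X' : Matrix ι ι F} (h : nQ hF Y X = nQ hF Y' X') :
    Y = Y' ∧ X = X' := by
  unfold nQ at h
  obtain ⟨h1, h2, -, -⟩ := Matrix.fromBlocks_inj.1 h
  exact ⟨((Matrix.fromRows_ext_iff _ _ _ _).1 h2).1, (Matrix.fromBlocks_inj.1 h1).2.1⟩

theorem nQ_zero (X : Matrix ι ι F) :
    nQ hF 0 X = fromBlocks (fromBlocks 1 X 0 1) 0 0 1 := by
  unfold nQ
  rw [cT_zero, neg_zero, Matrix.fromRows_zero, Matrix.fromCols_zero]

theorem nQ_zero_zero : nQ hF (0 : Matrix ι Unit F) 0 = 1 := by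
  rw [nQ_zero, Matrix.fromBlocks_one, Matrix.fromBlocks_one]

end Cfsg.Agent.Lib.Helper39.SUDeg
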